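import Cfsg.Agent.H46.SL2Hom
import Cfsg.Agent.H46.Borel
import Cfsg.Agent.H47.FieldMap

/-!
# The homomorphism `SL₂ → ⟨X_r, X_{-r}⟩` and its compatibilities
-/

set_option autoImplicit false

namespace Cfsg.Agent.H23.RankOne

open Cfsg.Lie Cfsg.Agent.H46
open scoped Matrix

variable {D : ChevalleyDatum} (G : Good D) {F : Type*} [Field F]

local notation "SL2" => Matrix.SpecialLinearGroup (Fin 2)

/-- The entrywise map on `GL(L)` induced by a field homomorphism. -/
def mapL (D : ChevalleyDatum) {L : Type*} [Field L] (f : F →+* L) : GL D.Idx F →* GL D.Idx L :=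
  Units.map (f.mapMatrix (m := D.Idx)).toMonoidHom

theorem mapL_injective {L : Type*} [Field L] (f : F →+* L) : Function.Injective (mapL D f) := fun _ _ e =>
  Units.ext <| Matrix.map_injective f.injective (congrArg Units.val e :)

theorem mapL_xg {L : Type*} [Field L] (f : F →+* L) (r : ℕ) (t : F) :
    mapL D f (G.xg r t) = G.xg r (f t) := by
  apply Units.ext
  change (G.xg r t : GL D.Idx F).val.map f = _
  rw [G.coe_xg, G.coe_xg, H47.x_map]

theorem mapL_ng {L : Type*} [Field L] (f : F →+* L) (r : ℕ) (a : F) :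
    mapL D f (G.ng r a) = G.ng r (f a) := by
  simp only [Good.ng, map_mul, mapL_xg G, map_neg, map_inv₀]

theorem mapL_hg {L : Type*} [Field L] (f : F →+* L) (r : ℕ) (a : F) :
    mapL D f (G.hg r a) = G.hg r (f a) := by
  simp only [Good.hg, map_mul, mapL_ng G, map_neg, map_one]

theorem torus_prod (w : Fin D.rank → Fˣ) : G.torus w =
    ((Finset.univ : Finset (Fin D.rank)).toList.map fun k : Fin D.rank => G.hg (D.simple k) (w k : F)).prod := by
  classical
  conv_lhs => rw [← Finset.univ_prod_mulSingle w, ← Finset.prod_map_toList]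
  rw [map_list_prod, List.map_map]
  exact congrArg List.prod (List.map_congr_left fun k _ => G.torus_mulSingle k (w k))

theorem mapL_torus {L : Type*} [Field L] (f : F →+* L) (z : Fin D.rank → Fˣ) :
    mapL D f (G.torus z) = G.torus (fun k => Units.map f.toMonoidHom (z k)) := by
  rw [torus_prod G z, torus_prod G (fun k => Units.map f.toMonoidHom (z k)), map_list_prod, List.map_map]
  exact congrArg List.prod (List.map_congr_left fun k _ => mapL_hg G f _ _)

theorem mapL_mem_group {L : Type*} [Field L] (f : F →+* L) {g : GL D.Idx F} (hg : g ∈ D.group F) :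
    mapL D f g ∈ D.group L :=
  H47.map_group_le D f ⟨g, hg, rfl⟩

/-- The homomorphism attached to a root. -/
noncomputable def slHom {r : ℕ} (hr : r < D.nroots) : SL2 F →* GL D.Idx F :=
  (G.exists_slHom (F := F) hr).choose

theorem slHom_X {r : ℕ} (hr : r < D.nroots) (t : F) : slHom G hr (slX t) = G.xg r t :=
  G.eq_xg (((G.exists_slHom (F := F) hr).choose_spec.2 (slX t) t).1 rfl)

theorem slHom_Y {r : ℕ} (hr : r < D.nroots) (t : F) : slHom G hr (slY t) = G.xg (D.neg r) t :=
  G.eq_xg (((G.exists_slHom (F := F) hr).choose_spec.2 (slY t) t).2 rfl)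

theorem slHom_mem_group {r : ℕ} (hr : r < D.nroots) (g : SL2 F) : slHom G hr g ∈ D.group F := by
  have h : slHom G hr g ∈ D.rootSubgroup F r ⊔ D.rootSubgroup F (D.neg r) :=
    (G.exists_slHom (F := F) hr).choose_spec.1 ▸ ⟨g, rfl⟩
  refine (sup_le ?_ ?_ : D.rootSubgroup F r ⊔ D.rootSubgroup F (D.neg r) ≤ D.group F) h <;>
  · intro x hx
    obtain ⟨t, rfl⟩ := G.mem_rootSubgroup.1 hx
    exact G.xg_mem_group _ t

theorem slW_eq : (slW : SL2 F) = slX 1 * slY (-1) * slX 1 := by
  apply Subtype.ext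
  ext i j
  fin_cases i <;> fin_cases j <;> simp [sl_mul_val, coe_slX, coe_slY, coe_slW, Matrix.mul_apply, Fin.sum_univ_two]

/-- Two homomorphisms agreeing on root elements are equal. -/
theorem sl_hom_ext {M : Type*} [Group M] {a b : SL2 F →* M} (hX : ∀ t, a (slX t) = b (slX t))
    (hY : ∀ t, a (slY t) = b (slY t)) : a = b := by
  refine MonoidHom.ext fun g => sl_generated (a.eqLocus b) hX ?_ g
  change a slW = b slW
  rw [slW_eq, map_mul, map_mul, map_mul, map_mul, hX, hY]

/-- `[[0, u], [-u⁻¹, 0]]`. -/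
def slN (u : F) (hu : u ≠ 0) : SL2 F :=
  ⟨!![0, u; -u⁻¹, 0], by simp [Matrix.det_fin_two, mul_inv_cancel₀ hu]⟩

/-- `[[a, 0], [0, a⁻¹]]`. -/
def slD (a : F) (ha : a ≠ 0) : SL2 F :=
  ⟨!![a, 0; 0, a⁻¹], by simp [Matrix.det_fin_two, mul_inv_cancel₀ ha]⟩

theorem coe_slN (u : F) (hu : u ≠ 0) : (slN u hu).1 = !![0, u; -u⁻¹, 0] := rfl

theorem coe_slD (a : F) (ha : a ≠ 0) : (slD a ha).1 = !![a, 0; 0, a⁻¹] := rfl

theorem slHom_N {r : ℕ} (hr : r < D.nroots) {u : F} (hu : u ≠ 0) : slHom G hr (slN u hu) = G.ng r u := by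
  have e : slN u hu = slX u * slY (-u⁻¹) * slX u := by
    apply Subtype.ext
    ext i j
    fin_cases i <;> fin_cases j <;>
      simp [slN, sl_mul_val, coe_slX, coe_slY, Matrix.mul_apply, Fin.sum_univ_two, hu]
  rw [e, map_mul, map_mul, slHom_X, slHom_Y, Good.ng]

theorem slHom_D {r : ℕ} (hr : r < D.nroots) {a : F} (ha : a ≠ 0) : slHom G hr (slD a ha) = G.hg r a := by
  have e : slD a ha = slN a ha * slN (-1) (neg_ne_zero.2 one_ne_zero) := by
    apply Subtype.ext
    ext i j
    fin_cases i <;> fin_cases j <;> simp [coe_slD, coe_slN, sl_mul_val, Matrix.mul_apply, Fin.sum_univ_two]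
  rw [e, map_mul, slHom_N, slHom_N, Good.hg]

/-- Compatibility with field homomorphisms. -/
theorem mapL_slHom {L : Type*} [Field L] (f : F →+* L) {r : ℕ} (hr : r < D.nroots) (g : SL2 F) :
    mapL D f (slHom G hr g) = slHom G hr (Matrix.SpecialLinearGroup.map f g) := by
  refine DFunLike.congr_fun (sl_hom_ext (a := (mapL D f).comp (slHom G hr))
    (b := (slHom G hr).comp (Matrix.SpecialLinearGroup.map f)) (fun t => ?_) fun t => ?_) g
  · have e : Matrix.SpecialLinearGroup.map f (slX t) = slX (f t) := by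
      apply Subtype.ext
      ext i j
      fin_cases i <;> fin_cases j <;> simp [coe_slX]
    simp only [MonoidHom.comp_apply, e, slHom_X, mapL_xg G]
  · have e : Matrix.SpecialLinearGroup.map f (slY t) = slY (f t) := by
      apply Subtype.ext
      ext i j
      fin_cases i <;> fin_cases j <;> simp [coe_slY]
    simp only [MonoidHom.comp_apply, e, slHom_Y, mapL_xg G]

/-- `g` conjugated by `diag(v, 1)`. -/
def slConjFun (v : Fˣ) (g : SL2 F) : SL2 F :=
  ⟨!![g.1 0 0, (v : F) * g.1 0 1; g.1 1 0 * (↑v⁻¹ : F), g.1 1 1], by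
    rw [Matrix.det_fin_two_of]
    linear_combination sl_det g - g.1 0 1 * g.1 1 0 * v.mul_inv⟩

theorem coe_slConjFun (v : Fˣ) (g : SL2 F) :
    (slConjFun v g).1 = !![g.1 0 0, (v : F) * g.1 0 1; g.1 1 0 * (↑v⁻¹ : F), g.1 1 1] := rfl

/-- Conjugation by `diag(v, 1)`. -/
def slConj (v : Fˣ) : SL2 F →* SL2 F where
  toFun := slConjFun v
  map_one' := by
    apply Subtype.ext
    ext i j
    fin_cases i <;> fin_cases j <;> simp [coe_slConjFun]
  map_mul' a b := by
    apply Subtype.ext
    ext i j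
    fin_cases i <;> fin_cases j <;>
      simp [coe_slConjFun, sl_mul_val, Matrix.mul_apply, Fin.sum_univ_two] <;> field_simp

theorem coe_slConj (v : Fˣ) (g : SL2 F) :
    (slConj v g).1 = !![g.1 0 0, (v : F) * g.1 0 1; g.1 1 0 * (↑v⁻¹ : F), g.1 1 1] := rfl

/-- Compatibility with conjugation by the torus. -/
theorem torus_conj_slHom (z : Fin D.rank → Fˣ) {r : ℕ} (hr : r < D.nroots) (g : SL2 F) :
    G.torus z * slHom G hr g * (G.torus z)⁻¹ = slHom G hr (slConj (G.torusVal z r) g) := by
  refine DFunLike.congr_fun (sl_hom_ext (a := (MulAut.conj (G.torus z)).toMonoidHom.comp (slHom G hr))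
    (b := (slHom G hr).comp (slConj (G.torusVal z r))) (fun t => ?_) fun t => ?_) g
  · have e : slConj (G.torusVal z r) (slX t) = slX ((G.torusVal z r : F) * t) := by
      apply Subtype.ext
      ext i j
      fin_cases i <;> fin_cases j <;> simp [coe_slConj, coe_slX]
    simp only [MonoidHom.comp_apply, e, slHom_X, MulEquiv.coe_toMonoidHom, MulAut.conj_apply,
      G.torus_conj_xg z hr]
  · have e : slConj (G.torusVal z r) (slY t) = slY ((((G.torusVal z r)⁻¹ : Fˣ) : F) * t) := by
      apply Subtype.ext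
      ext i j
      fin_cases i <;> fin_cases j <;> simp [coe_slConj, coe_slY, mul_comm]
    simp only [MonoidHom.comp_apply, e, slHom_Y, MulEquiv.coe_toMonoidHom, MulAut.conj_apply,
      G.torus_conj_xg z (G.neg_lt hr), G.torusVal_neg hr]

/-- Elements with parameters in a subfield lie in the subgroup generated by the corresponding root elements. -/
theorem slHom_mem {r : ℕ} (hr : r < D.nroots) (E : Subfield F) (H : Subgroup (GL D.Idx F))
    (hX : ∀ t ∈ E, G.xg r t ∈ H) (hY : ∀ t ∈ E, G.xg (D.neg r) t ∈ H) (g : SL2 F)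
    (hg : ∀ i j, g.1 i j ∈ E) : slHom G hr g ∈ H := by
  have hX' : ∀ t ∈ E, slX t ∈ H.comap (slHom G hr) := fun t ht => by
    rw [Subgroup.mem_comap, slHom_X]; exact hX t ht
  have hY' : ∀ t ∈ E, slY t ∈ H.comap (slHom G hr) := fun t ht => by
    rw [Subgroup.mem_comap, slHom_Y]; exact hY t ht
  have main : ∀ g : SL2 F, (∀ i j, g.1 i j ∈ E) → g.1 1 0 ≠ 0 → g ∈ H.comap (slHom G hr) := by
    intro g hg hc
    have hdet := sl_det g
    have e : g = slX ((g.1 0 0 - 1) / g.1 1 0) * slY (g.1 1 0) * slX ((g.1 1 1 - 1) / g.1 1 0) := by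
      apply Subtype.ext
      ext i j
      fin_cases i <;> fin_cases j <;>
        simp [sl_mul_val, coe_slX, coe_slY, Matrix.mul_apply, Fin.sum_univ_two] <;> field_simp
      · ring
      · linear_combination -hdet
      · ring
    rw [e]
    exact mul_mem (mul_mem (hX' _ (E.div_mem (E.sub_mem (hg 0 0) E.one_mem) (hg 1 0))) (hY' _ (hg 1 0)))
      (hX' _ (E.div_mem (E.sub_mem (hg 1 1) E.one_mem) (hg 1 0)))
  change g ∈ H.comap (slHom G hr)
  by_cases hc : g.1 1 0 = 0
  · have hd : g.1 1 1 ≠ 0 := fun h => by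
      have := sl_det g
      simp [hc, h] at this
    have hgW : g * slW ∈ H.comap (slHom G hr) := by
      refine main _ (fun i j => ?_) ?_
      · fin_cases j
        · exact (mul_slW_entry g i).1 ▸ E.neg_mem (hg i 1)
        · exact (mul_slW_entry g i).2 ▸ hg i 0
      · rw [(mul_slW_entry g 1).1]
        exact neg_ne_zero.2 hd
    have hW : (slW : SL2 F) ∈ H.comap (slHom G hr) := by
      rw [slW_eq]
      exact mul_mem (mul_mem (hX' _ E.one_mem) (hY' _ (E.neg_mem E.one_mem))) (hX' _ E.one_mem)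
    simpa using mul_mem hgW (inv_mem hW)
  · exact main g hg hc

end Cfsg.Agent.H23.RankOne
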